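import Mathlib
import Cfsg.Prelude.Def_GeometricClasses
import Cfsg.Agent.ClassicalGeometry.Reflection
import Cfsg.Agent.H889.QForm

/-!
Commutators of two reflections as elements of `omegaGL`, and a criterion for non-maximality of stabilisers of
orthogonal decompositions.
-/

set_option autoImplicit false
set_option linter.unusedSectionVars false

namespace Cfsg.Agent.H886

open Matrix Cfsg.Geo QuadraticMap
open Cfsg.Agent.H889 (bundleQ)
open scoped MatrixGroups commutatorElement

variable {ι : Type} [Fintype ι] [DecidableEq ι] {F : Type*} [Field F]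

/-- The reflection map. -/
def rf (Q : (ι → F) → F) (u x : ι → F) : ι → F := x - ((Q u)⁻¹ * polar Q u x) • u

theorem rf_def (Q : (ι → F) → F) (u x : ι → F) :
    rf Q u x = x - ((Q u)⁻¹ * polar Q u x) • u := rfl

theorem act_reflIso (B : QuadraticForm F (ι → F)) (w : ι → F) (hw : B w ≠ 0) (x : ι → F) :
    ((Cfsg.Agent.ClassicalGeometry.Reflection.reflIso B w hw :
        Matrix.GeneralLinearGroup ι F) : Matrix ι ι F) *ᵥ x = rf (⇑B) w x := by
  rw [Cfsg.Agent.ClassicalGeometry.Reflection.coe_reflIso,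
      Cfsg.Agent.ClassicalGeometry.Reflection.reflectionMatrix_mulVec]
  rfl

theorem exists_refl_comm' (B : QuadraticForm F (ι → F)) (u v : ι → F) (hu : B u ≠ 0) (hv : B v ≠ 0)
    (huv : B (rf (⇑B) v u) ≠ 0) :
    ∃ g : GL ι F, g ∈ omegaGL (⇑B) ∧
      ∀ x, (g : Matrix ι ι F) *ᵥ x = rf (⇑B) u (rf (⇑B) (rf (⇑B) v u) x) := by
  let ru := Cfsg.Agent.ClassicalGeometry.Reflection.reflIso B u hu
  let rv := Cfsg.Agent.ClassicalGeometry.Reflection.reflIso B v hv
  let rw' := Cfsg.Agent.ClassicalGeometry.Reflection.reflIso B (rf (⇑B) v u) huv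
  have hconj : rv * ru * rv⁻¹ = rw' := by
    have h1 : B (((rv : Matrix.GeneralLinearGroup ι F) : Matrix ι ι F) *ᵥ u) ≠ 0 := by
      rw [act_reflIso]; exact huv
    rw [Cfsg.Agent.ClassicalGeometry.Reflection.conj_reflIso B u hu rv h1]
    exact Cfsg.Agent.ClassicalGeometry.Reflection.isometryGroup_ext _ _ _ (fun x => by
      rw [act_reflIso, act_reflIso, act_reflIso])
  have hinv : ru⁻¹ = ru := Cfsg.Agent.ClassicalGeometry.Reflection.reflIso_inv B u hu
  have hcomm : ru * rw' ∈ commutator (Cfsg.isometryGroup F (⇑B)) := by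
    have : ru * rw' = ⁅ru, rv⁆ := by
      rw [commutatorElement_def, hinv, ← hconj]
      simp only [mul_assoc]
    rw [this, commutator_def]
    exact Subgroup.commutator_mem_commutator (Subgroup.mem_top _) (Subgroup.mem_top _)
  refine ⟨((ru * rw' : Cfsg.isometryGroup F (⇑B)) : GL ι F), ?_, ?_⟩
  · exact Subgroup.mem_map_of_mem (Cfsg.isometryGroup F (⇑B)).subtype hcomm
  · intro x
    rw [Cfsg.Agent.ClassicalGeometry.Reflection.coe_mul_mulVec, act_reflIso, act_reflIso]

section
variable (Q : (ι → F) → F) (hQ : IsNondegenerateQuadraticForm Q)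
include hQ

theorem pl_add_left (x y z : ι → F) : polar Q (x + y) z = polar Q x z + polar Q y z :=
  hQ.polar_bilinear.add_left x y z
theorem pl_add_right (x y z : ι → F) : polar Q x (y + z) = polar Q x y + polar Q x z :=
  hQ.polar_bilinear.add_right x y z
theorem pl_smul_left (c : F) (x y : ι → F) : polar Q (c • x) y = c * polar Q x y :=
  hQ.polar_bilinear.smul_left c x y
theorem pl_smul_right (c : F) (x y : ι → F) : polar Q x (c • y) = c * polar Q x y :=
  hQ.polar_bilinear.smul_right c x y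
theorem pl_neg_left (x y : ι → F) : polar Q (-x) y = - polar Q x y := by
  rw [← neg_one_smul F x, pl_smul_left Q hQ]; ring
theorem pl_neg_right (x y : ι → F) : polar Q x (-y) = - polar Q x y := by
  rw [← neg_one_smul F y, pl_smul_right Q hQ]; ring
theorem pl_sub_left (x y z : ι → F) : polar Q (x - y) z = polar Q x z - polar Q y z := by
  rw [sub_eq_add_neg, pl_add_left Q hQ, pl_neg_left Q hQ]; ring
theorem pl_sub_right (x y z : ι → F) : polar Q x (y - z) = polar Q x y - polar Q x z := by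
  rw [sub_eq_add_neg, pl_add_right Q hQ, pl_neg_right Q hQ]; ring
theorem pl_self (x : ι → F) : polar Q x x = 2 * Q x := by
  have := QuadraticMap.polar_self (bundleQ Q hQ) x
  simpa using this
theorem pl_zero_left (x : ι → F) : polar Q 0 x = 0 := by
  have := pl_smul_left Q hQ 0 0 x
  simpa using this
theorem pl_zero_right (x : ι → F) : polar Q x 0 = 0 := by
  have := pl_smul_right Q hQ 0 x 0
  simpa using this
theorem q_add (x y : ι → F) : Q (x + y) = Q x + Q y + polar Q x y := by
  rw [polar]; ring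
theorem q_neg (x : ι → F) : Q (-x) = Q x := by
  rw [← neg_one_smul F x, hQ.smul]; ring
theorem q_sub (x y : ι → F) : Q (x - y) = Q x + Q y - polar Q x y := by
  rw [sub_eq_add_neg, q_add Q hQ, q_neg Q hQ, pl_neg_right Q hQ]; ring
theorem q_zero : Q 0 = 0 := by
  have := hQ.smul 0 0
  simpa using this

theorem rf_isometry (u : ι → F) (hu : Q u ≠ 0) (x : ι → F) : Q (rf Q u x) = Q x := by
  rw [rf_def, q_sub Q hQ, hQ.smul, pl_smul_right Q hQ, polar_comm Q x u]
  field_simp
  ring

/-- The commutator of the reflections in `u` and `v` is an element of `Ω`. -/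
theorem exists_refl_comm (u v : ι → F) (hu : Q u ≠ 0) (hv : Q v ≠ 0) :
    ∃ g : GL ι F, g ∈ omegaGL Q ∧
      ∀ x, (g : Matrix ι ι F) *ᵥ x = rf Q u (rf Q (rf Q v u) x) :=
  exists_refl_comm' (bundleQ Q hQ) u v hu hv ((rf_isometry Q hQ v hv u).trans_ne hu)

theorem omega_isometry (g : GL ι F) (hg : g ∈ omegaGL Q) (x : ι → F) :
    Q ((g : Matrix ι ι F) *ᵥ x) = Q x := by
  obtain ⟨h, -, rfl⟩ := hg
  exact (Cfsg.Agent.ClassicalGeometry.Reflection.mem_isometryGroup_iff Q _).1 h.2 x

end

theorem mem_stabilizing_iff (S : Set (ι → F)) (g : GL ι F) :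
    g ∈ Cfsg.stabilizing (Cfsg.glToMat ι F) S ↔ ∀ v, v ∈ S ↔ (g : Matrix ι ι F) *ᵥ v ∈ S := Iff.rfl

theorem mulVec_injective' (g : GL ι F) : Function.Injective (fun v => (g : Matrix ι ι F) *ᵥ v) := by
  intro v w h
  have : ((g⁻¹ : GL ι F) : Matrix ι ι F) *ᵥ ((g : Matrix ι ι F) *ᵥ v) =
      ((g⁻¹ : GL ι F) : Matrix ι ι F) *ᵥ ((g : Matrix ι ι F) *ᵥ w) := by
    have h' : (g : Matrix ι ι F) *ᵥ v = (g : Matrix ι ι F) *ᵥ w := h
    rw [h']
  rw [Matrix.mulVec_mulVec, Matrix.mulVec_mulVec, ← Units.val_mul, inv_mul_cancel, Units.val_one,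
    Matrix.one_mulVec, Matrix.one_mulVec] at this
  exact this

theorem mem_stabilizing_of_forward [Finite F] (S : Set (ι → F)) (g : GL ι F)
    (h : ∀ v ∈ S, (g : Matrix ι ι F) *ᵥ v ∈ S) : g ∈ Cfsg.stabilizing (Cfsg.glToMat ι F) S := by
  rw [mem_stabilizing_iff]
  intro v
  refine ⟨h v, fun hv => ?_⟩
  have hfin : S.Finite := Set.toFinite S
  have himg : (fun v => (g : Matrix ι ι F) *ᵥ v) '' S = S :=
    Set.Finite.eq_of_subset_of_card_le hfin (by rintro _ ⟨w, hw, rfl⟩; exact h w hw)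
      (le_of_eq (Nat.card_image_of_injective (mulVec_injective' g) S).symm)
  rw [← himg] at hv
  obtain ⟨w, hw, hwv⟩ := hv
  rwa [← mulVec_injective' g hwv]

end Cfsg.Agent.H886
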